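import Mathlib

/-!
# Biconvex sets of positive roots (helper255, S3509 F5)

`P` a finite subset of an additive group, `θ : V → V`.

* `Bic P θ N` : `N ⊆ P` is biconvex in `P` and stable under `θ`;
* `bsum P θ q` : the sum of `q ^ |N|` over these `N`;
* `sum_le` : `∑ q ^ |N(w)| ≤ c * bsum P θ q`, if the fibres of `w ↦ N(w)` have at most `c` elements;
* `bsum_union` : `bsum (P₁ ∪ P₂) ≤ bsum P₁ * bsum P₂`;
* `bsum_cyc` : `bsum P θ q ≤ bsum P₁ θ^[a] (q ^ a)`, if `P` is the disjoint union of the `θ^[i] P₁`, `i < a`;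
* `bsum_leaf` : the extension by a leaf; `bsum_chain`, `bsum_chain_mul`;
* `bsum_flip2`, `bsum_flip3` : `²A₂`, `²A₃`.
-/

set_option autoImplicit false

namespace Cfsg.Agent.H255.RG

open Finset

variable {V : Type*} [AddCommGroup V]

/-- `N ⊆ P` is biconvex in `P` and stable under `θ` -/
structure Bic (P : Finset V) (θ : V → V) (N : Finset V) : Prop where
  sub : N ⊆ P
  add : ∀ a ∈ N, ∀ b ∈ N, a + b ∈ P → a + b ∈ N
  coadd : ∀ a ∈ P, ∀ b ∈ P, a ∉ N → b ∉ N → a + b ∉ N
  st : ∀ a ∈ N, θ a ∈ N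

open Classical in
/-- the sum of `q ^ |N|` over the biconvex stable sets -/
noncomputable def bsum (P : Finset V) (θ : V → V) (q : ℕ) : ℕ :=
  ∑ N ∈ P.powerset.filter (Bic P θ), q ^ N.card

open Classical in
theorem mem_bs {P : Finset V} {θ : V → V} {N : Finset V} : N ∈ P.powerset.filter (Bic P θ) ↔ Bic P θ N := by
  rw [mem_filter, mem_powerset]
  exact ⟨fun h => h.2, fun h => ⟨h.sub, h⟩⟩

/-- **the sum over a group** -/
theorem sum_le {W : Type*} (Ω : Finset W) (Nw : W → Finset V) {P : Finset V} {θ : V → V} (hN : ∀ w ∈ Ω, Bic P θ (Nw w))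
    {c : ℕ} (hfib : ∀ S : Finset W, S ⊆ Ω → (∀ w ∈ S, ∀ w' ∈ S, Nw w = Nw w') → S.card ≤ c) (q : ℕ) :
    ∑ w ∈ Ω, q ^ (Nw w).card ≤ c * bsum P θ q := by
  classical
  unfold bsum
  rw [← Finset.sum_fiberwise_of_maps_to (s := Ω) (t := P.powerset.filter (Bic P θ)) (g := Nw)
    (fun w hw => mem_bs.2 (hN w hw)), Finset.mul_sum]
  refine Finset.sum_le_sum fun N _ => ?_
  rw [Finset.sum_congr rfl (g := fun _ => q ^ N.card) fun w hw => by rw [(mem_filter.1 hw).2]]
  rw [sum_const, smul_eq_mul]
  refine Nat.mul_le_mul_right _ (hfib _ (filter_subset _ _) fun w hw w' hw' => ?_)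
  rw [(mem_filter.1 hw).2, (mem_filter.1 hw').2]

theorem bsum_empty (θ : V → V) (q : ℕ) : bsum (∅ : Finset V) θ q ≤ 1 := by
  classical
  unfold bsum
  refine le_trans (Finset.sum_le_sum_of_subset (t := {∅}) fun N hN => ?_) (by simp)
  rw [mem_bs] at hN
  rw [mem_singleton]
  exact subset_empty.1 hN.sub

theorem bsum_mono_st (P : Finset V) {θ θ' : V → V} (h : ∀ N, Bic P θ N → Bic P θ' N) (q : ℕ) :
    bsum P θ q ≤ bsum P θ' q := by
  classical
  unfold bsum
  refine Finset.sum_le_sum_of_subset fun N hN => ?_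
  rw [mem_bs] at hN ⊢
  exact h N hN

/-- forget `θ` -/
theorem bsum_id (P : Finset V) (θ : V → V) (q : ℕ) : bsum P θ q ≤ bsum P id q :=
  bsum_mono_st P (fun _ h => ⟨h.sub, h.add, h.coadd, fun _ ha => ha⟩) q

/-- `θ` matters only on `P` -/
theorem bsum_congr (P : Finset V) {θ θ' : V → V} (h : ∀ a ∈ P, θ a = θ' a) (q : ℕ) : bsum P θ q ≤ bsum P θ' q :=
  bsum_mono_st P (fun _ h' => ⟨h'.sub, h'.add, h'.coadd, fun a ha => by rw [← h a (h'.sub ha)]; exact h'.st a ha⟩) q

/-- the restriction -/
theorem Bic.inter [DecidableEq V] {P P' : Finset V} {θ : V → V} {N : Finset V} (h : Bic P θ N) (hP : P' ⊆ P)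
    (hθ : ∀ a ∈ P', θ a ∈ P') : Bic P' θ (N ∩ P') where
  sub := inter_subset_right
  add a ha b hb hab := by
    rw [mem_inter] at ha hb ⊢
    exact ⟨h.add a ha.1 b hb.1 (hP hab), hab⟩
  coadd a ha b hb ha' hb' := by
    rw [mem_inter] at ha' hb' ⊢
    intro h1
    exact h.coadd a (hP ha) b (hP hb) (fun h2 => ha' ⟨h2, ha⟩) (fun h2 => hb' ⟨h2, hb⟩) h1.1
  st a ha := by
    rw [mem_inter] at ha ⊢
    exact ⟨h.st a ha.1, hθ a ha.2⟩

/-- **unions of components** -/
theorem bsum_union [DecidableEq V] {P₁ P₂ : Finset V} (hd : Disjoint P₁ P₂) {θ : V → V} (h₁ : ∀ a ∈ P₁, θ a ∈ P₁)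
    (h₂ : ∀ a ∈ P₂, θ a ∈ P₂) (q : ℕ) : bsum (P₁ ∪ P₂) θ q ≤ bsum P₁ θ q * bsum P₂ θ q := by
  classical
  unfold bsum
  rw [Finset.sum_mul_sum, ← Finset.sum_product']
  have hc : ∀ N ∈ (P₁ ∪ P₂).powerset.filter (Bic (P₁ ∪ P₂) θ), q ^ N.card = q ^ (N ∩ P₁).card * q ^ (N ∩ P₂).card := by
    intro N hN
    rw [mem_bs] at hN
    rw [← pow_add, ← card_union_of_disjoint]
    · rw [← inter_union_distrib_left, inter_eq_left.2 hN.sub]
    · exact (hd.mono inter_subset_right inter_subset_right)
  rw [Finset.sum_congr rfl hc]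
  rw [← Finset.sum_image (s := (P₁ ∪ P₂).powerset.filter (Bic (P₁ ∪ P₂) θ)) (g := fun N => (N ∩ P₁, N ∩ P₂))
    (f := fun x : Finset V × Finset V => q ^ x.1.card * q ^ x.2.card)]
  · refine Finset.sum_le_sum_of_subset fun x hx => ?_
    obtain ⟨N, hN, rfl⟩ := mem_image.1 hx
    rw [mem_bs] at hN
    rw [mem_product, mem_bs, mem_bs]
    exact ⟨hN.inter subset_union_left h₁, hN.inter subset_union_right h₂⟩
  · intro N hN N' hN' he
    rw [mem_coe, mem_bs] at hN hN'
    have h3 := Prod.mk.inj he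
    rw [← inter_eq_left.2 hN.sub, ← inter_eq_left.2 hN'.sub, inter_union_distrib_left, inter_union_distrib_left,
      h3.1, h3.2]

/-- **a cyclic union** -/
theorem bsum_cyc [DecidableEq V] {P P₁ : Finset V} {θ : V → V} {a : ℕ} (hinj : ∀ x ∈ P, ∀ y ∈ P, θ x = θ y → x = y)
    (hmap : ∀ x ∈ P, θ x ∈ P) (hP : P = (range a).biUnion fun i => P₁.image θ^[i])
    (hd : ∀ i < a, ∀ j < a, i ≠ j → Disjoint (P₁.image θ^[i]) (P₁.image θ^[j])) (ha : 0 < a)
    (hcyc : ∀ x ∈ P₁, θ^[a] x ∈ P₁) (q : ℕ) : bsum P θ q ≤ bsum P₁ θ^[a] (q ^ a) := by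
  classical
  have h1P : P₁ ⊆ P := by
    intro x hx
    rw [hP, mem_biUnion]
    exact ⟨0, mem_range.2 ha, mem_image.2 ⟨x, hx, rfl⟩⟩
  have hmapi : ∀ i : ℕ, ∀ x ∈ P, θ^[i] x ∈ P := by
    intro i
    induction i with
    | zero => exact fun x hx => hx
    | succ i ih =>
      intro x hx
      rw [Function.iterate_succ_apply']
      exact hmap _ (ih x hx)
  have hinji : ∀ i : ℕ, ∀ x ∈ P, ∀ y ∈ P, θ^[i] x = θ^[i] y → x = y := by
    intro i
    induction i with
    | zero => exact fun x _ y _ h => h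
    | succ i ih =>
      intro x hx y hy h
      rw [Function.iterate_succ_apply', Function.iterate_succ_apply'] at h
      exact ih x hx y hy (hinj _ (hmapi i x hx) _ (hmapi i y hy) h)
  have hsti : ∀ N, Bic P θ N → ∀ i : ℕ, ∀ x ∈ N, θ^[i] x ∈ N := by
    intro N hN i
    induction i with
    | zero => exact fun x hx => hx
    | succ i ih =>
      intro x hx
      rw [Function.iterate_succ_apply']
      exact hN.st _ (ih x hx)
  have himg : ∀ N, Bic P θ N → ∀ i : ℕ, N.image θ^[i] = N := by
    intro N hN i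
    refine eq_of_subset_of_card_le (image_subset_iff.2 fun x hx => hsti N hN i x hx) ?_
    rw [card_image_of_injOn]
    exact fun x hx y hy h => hinji i x (hN.sub hx) y (hN.sub hy) h
  have hback : ∀ N, Bic P θ N → ∀ i : ℕ, ∀ x ∈ P, θ^[i] x ∈ N → x ∈ N := by
    intro N hN i x hx h
    rw [← himg N hN i, mem_image] at h
    obtain ⟨y, hy, h2⟩ := h
    rwa [← hinji i y (hN.sub hy) x hx h2]
  have hNeq : ∀ N, Bic P θ N → N = (range a).biUnion fun i => (N ∩ P₁).image θ^[i] := by
    intro N hN
    ext x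
    rw [mem_biUnion]
    constructor
    · intro hx
      have h1 := hN.sub hx
      rw [hP, mem_biUnion] at h1
      obtain ⟨i, hi, h2⟩ := h1
      obtain ⟨y, hy, rfl⟩ := mem_image.1 h2
      exact ⟨i, hi, mem_image.2 ⟨y, mem_inter.2 ⟨hback N hN i y (h1P hy) hx, hy⟩, rfl⟩⟩
    · rintro ⟨i, -, h2⟩
      obtain ⟨y, hy, rfl⟩ := mem_image.1 h2
      exact hsti N hN i y (mem_inter.1 hy).1
  have hcard : ∀ N, Bic P θ N → N.card = a * (N ∩ P₁).card := by
    intro N hN
    conv_lhs => rw [hNeq N hN]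
    rw [card_biUnion]
    · rw [sum_congr rfl (g := fun _ => (N ∩ P₁).card)]
      · rw [sum_const, card_range, smul_eq_mul]
      · intro i _
        rw [card_image_of_injOn]
        exact fun x hx y hy h => hinji i x (h1P (mem_inter.1 hx).2) y (h1P (mem_inter.1 hy).2) h
    · intro i hi j hj hij
      exact (hd i (mem_range.1 hi) j (mem_range.1 hj) hij).mono (image_subset_image inter_subset_right)
        (image_subset_image inter_subset_right)
  unfold bsum
  rw [Finset.sum_congr rfl (g := fun N => (q ^ a) ^ (N ∩ P₁).card) fun N hN => by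
    rw [mem_bs] at hN; rw [← pow_mul, hcard N hN]]
  rw [← Finset.sum_image (s := P.powerset.filter (Bic P θ)) (g := fun N => N ∩ P₁)
    (f := fun x : Finset V => (q ^ a) ^ x.card)]
  · refine Finset.sum_le_sum_of_subset fun x hx => ?_
    obtain ⟨N, hN, rfl⟩ := mem_image.1 hx
    rw [mem_bs] at hN
    rw [mem_bs]
    refine ⟨inter_subset_right, fun x hx y hy hxy => ?_, fun x hx y hy hx' hy' => ?_, fun x hx => ?_⟩
    · rw [mem_inter] at hx hy ⊢
      exact ⟨hN.add x hx.1 y hy.1 (h1P hxy), hxy⟩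
    · rw [mem_inter] at hx' hy' ⊢
      intro h1
      exact hN.coadd x (h1P hx) y (h1P hy) (fun h2 => hx' ⟨h2, hx⟩) (fun h2 => hy' ⟨h2, hy⟩) h1.1
    · rw [mem_inter] at hx ⊢
      exact ⟨hsti N hN a x hx.1, hcyc x hx.2⟩
  · intro N hN N' hN' he
    rw [mem_coe, mem_bs] at hN hN'
    have he' : N ∩ P₁ = N' ∩ P₁ := he
    rw [hNeq N hN, hNeq N' hN', he']

/-! ### leaves -/

/-- two elements of `R` differ by an element of `P'` -/
def Leaf (P' R : Finset V) : Prop := ∀ a ∈ R, ∀ b ∈ R, a ≠ b → a - b ∈ P' ∨ b - a ∈ P'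

theorem comparable [DecidableEq V] {P' R : Finset V} (hl : Leaf P' R) {N N' : Finset V} (hN : Bic (P' ∪ R) id N)
    (hN' : Bic (P' ∪ R) id N') (he : N ∩ P' = N' ∩ P') : N ∩ R ⊆ N' ∩ R ∨ N' ∩ R ⊆ N ∩ R := by
  by_contra hcon
  push Not at hcon
  obtain ⟨h1, h2⟩ := hcon
  obtain ⟨a, ha, ha'⟩ := not_subset.1 h1
  obtain ⟨b, hb, hb'⟩ := not_subset.1 h2
  rw [mem_inter] at ha hb ha' hb'
  have haN' : a ∉ N' := fun h => ha' ⟨h, ha.2⟩
  have hbN : b ∉ N := fun h => hb' ⟨h, hb.2⟩
  have hab : a ≠ b := by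
    rintro rfl
    exact hbN ha.1
  have mem_iff : ∀ c ∈ P', (c ∈ N ↔ c ∈ N') := by
    intro c hc
    constructor
    · intro h
      have : c ∈ N ∩ P' := mem_inter.2 ⟨h, hc⟩
      rw [he] at this
      exact (mem_inter.1 this).1
    · intro h
      have : c ∈ N' ∩ P' := mem_inter.2 ⟨h, hc⟩
      rw [← he] at this
      exact (mem_inter.1 this).1
  rcases hl a ha.2 b hb.2 hab with hc | hc
  · by_cases hcN : a - b ∈ N
    · -- `a = (a - b) + b`, both in `N'`
      apply haN'
      have h3 := hN'.add _ ((mem_iff _ hc).1 hcN) b hb.1 (by rw [sub_add_cancel]; exact mem_union_right _ ha.2)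
      rwa [sub_add_cancel] at h3
    · have h3 := hN.coadd _ (mem_union_left _ hc) b (mem_union_right _ hb.2) hcN hbN
      rw [sub_add_cancel] at h3
      exact h3 ha.1
  · by_cases hcN : b - a ∈ N
    · apply hbN
      have h3 := hN.add _ hcN a ha.1 (by rw [sub_add_cancel]; exact mem_union_right _ hb.2)
      rwa [sub_add_cancel] at h3
    · have h3 := hN'.coadd _ (mem_union_left _ hc) a (mem_union_right _ ha.2)
        (fun h => hcN ((mem_iff _ hc).2 h)) haN'
      rw [sub_add_cancel] at h3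
      exact h3 hb.1

/-- **the extension by a leaf** -/
theorem bsum_leaf [DecidableEq V] {P' R : Finset V} (hd : Disjoint P' R) (hl : Leaf P' R) (q : ℕ) :
    bsum (P' ∪ R) id q ≤ bsum P' id q * ∑ i ∈ range (R.card + 1), q ^ i := by
  classical
  have key : ∀ N, Bic (P' ∪ R) id N → N.card = (N ∩ P').card + (N ∩ R).card := by
    intro N hN
    rw [← card_union_of_disjoint]
    · rw [← inter_union_distrib_left, inter_eq_left.2 hN.sub]
    · exact (hd.mono inter_subset_right inter_subset_right)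
  unfold bsum
  rw [← Finset.sum_fiberwise_of_maps_to (s := (P' ∪ R).powerset.filter (Bic (P' ∪ R) id))
    (t := P'.powerset.filter (Bic P' id)) (g := fun N => N ∩ P') (fun N hN => by
      rw [mem_bs] at hN ⊢
      exact hN.inter subset_union_left fun a ha => ha), Finset.sum_mul]
  refine Finset.sum_le_sum fun Q _ => ?_
  rw [Finset.sum_congr rfl (g := fun N => q ^ Q.card * q ^ (N ∩ R).card) fun N hN => by
    rw [mem_filter, mem_bs] at hN
    rw [← pow_add, key N hN.1, hN.2]]
  rw [← Finset.mul_sum]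
  refine Nat.mul_le_mul_left _ ?_
  rw [← Finset.sum_image (g := fun N : Finset V => (N ∩ R).card) (f := fun i : ℕ => q ^ i)]
  · refine Finset.sum_le_sum_of_subset fun i hi => ?_
    obtain ⟨N, -, rfl⟩ := mem_image.1 hi
    rw [mem_range]
    exact Nat.lt_succ_of_le (card_le_card inter_subset_right)
  · intro N hN N' hN' he
    rw [mem_coe, mem_filter, mem_bs] at hN hN'
    have he' : (N ∩ R).card = (N' ∩ R).card := he
    have h1 : N ∩ P' = N' ∩ P' := by rw [hN.2, hN'.2]
    have h2 : N ∩ R = N' ∩ R := by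
      rcases comparable hl hN.1 hN'.1 h1 with h | h
      · exact eq_of_subset_of_card_le h he'.ge
      · exact (eq_of_subset_of_card_le h he'.le).symm
    rw [← inter_eq_left.2 hN.1.sub, ← inter_eq_left.2 hN'.1.sub, inter_union_distrib_left, inter_union_distrib_left,
      h1, h2]

/-- a chain of leaves -/
inductive Chain [DecidableEq V] : Finset V → List ℕ → Prop
  | nil : Chain ∅ []
  | cons {P R : Finset V} {L : List ℕ} : Chain P L → Disjoint P R → Leaf P R → Chain (P ∪ R) (R.card :: L)

theorem bsum_chain [DecidableEq V] {P : Finset V} {L : List ℕ} (h : Chain P L) (q : ℕ) :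
    bsum P id q ≤ (L.map fun n => ∑ i ∈ range (n + 1), q ^ i).prod := by
  induction h with
  | nil => exact bsum_empty id q
  | cons hP hd hl ih =>
    rw [List.map_cons, List.prod_cons, mul_comm]
    exact (bsum_leaf hd hl q).trans (Nat.mul_le_mul_right _ ih)

theorem chain_card [DecidableEq V] {P : Finset V} {L : List ℕ} (h : Chain P L) : P.card = L.sum := by
  induction h with
  | nil => rfl
  | cons hP hd hl ih => rw [card_union_of_disjoint hd, ih, List.sum_cons, add_comm]

theorem geom_eq (r n : ℕ) : (∑ i ∈ range n, (r + 1) ^ i) * r + 1 = (r + 1) ^ n := by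
  induction n with
  | zero => simp
  | succ n ih =>
    rw [sum_range_succ, add_mul, pow_succ, mul_add, mul_one, ← ih]
    ring

theorem geom_le (q n : ℕ) : (∑ i ∈ range n, q ^ i) * (q - 1) ≤ q ^ n := by
  rcases Nat.eq_zero_or_pos q with rfl | hq
  · simp
  · obtain ⟨r, rfl⟩ : ∃ r, q = r + 1 := ⟨q - 1, by omega⟩
    rw [Nat.add_sub_cancel, ← geom_eq]
    exact Nat.le_succ _

/-- **type `A`** -/
theorem bsum_chain_mul [DecidableEq V] {P : Finset V} {L : List ℕ} (h : Chain P L) (q : ℕ) :
    bsum P id q * (q - 1) ^ L.length ≤ q ^ (P.card + L.length) := by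
  refine (Nat.mul_le_mul_right _ (bsum_chain h q)).trans ?_
  rw [chain_card h]
  clear h
  induction L with
  | nil => simp
  | cons n L ih =>
    rw [List.map_cons, List.prod_cons, List.length_cons, List.sum_cons]
    calc (∑ i ∈ range (n + 1), q ^ i) * (List.map (fun n => ∑ i ∈ range (n + 1), q ^ i) L).prod * (q - 1) ^ (L.length + 1)
        = ((∑ i ∈ range (n + 1), q ^ i) * (q - 1)) *
          ((List.map (fun n => ∑ i ∈ range (n + 1), q ^ i) L).prod * (q - 1) ^ L.length) := by ring
      _ ≤ q ^ (n + 1) * q ^ (L.sum + L.length) := Nat.mul_le_mul (geom_le q _) ih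
      _ = _ := by ring

/-- `²A₂` -/
theorem bsum_flip2 [DecidableEq V] {a b : V} (hab : a ≠ b) (hac : a + b ≠ a) (hbc : a + b ≠ b) {θ : V → V}
    (h1 : θ a = b) (h2 : θ b = a) (q : ℕ) : bsum {a, b, a + b} θ q ≤ 1 + q ^ 3 := by
  classical
  have hc : ({a, b, a + b} : Finset V).card = 3 := by
    rw [card_eq_three]
    exact ⟨a, b, a + b, hab, hac.symm, hbc.symm, rfl⟩
  have key : ∀ N, Bic {a, b, a + b} θ N → N = ∅ ∨ N = {a, b, a + b} := by
    intro N hN
    by_cases ha : a ∈ N
    · right
      have hb : b ∈ N := by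
        have := hN.st a ha
        rwa [h1] at this
      refine subset_antisymm hN.sub ?_
      intro x hx
      rw [mem_insert, mem_insert, mem_singleton] at hx
      rcases hx with rfl | rfl | rfl
      · exact ha
      · exact hb
      · exact hN.add a ha b hb (by simp)
    · left
      have hb : b ∉ N := fun h => ha (by have := hN.st b h; rwa [h2] at this)
      rw [eq_empty_iff_forall_notMem]
      intro x hx
      have hx' := hN.sub hx
      rw [mem_insert, mem_insert, mem_singleton] at hx'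
      rcases hx' with rfl | rfl | rfl
      · exact ha hx
      · exact hb hx
      · exact hN.coadd a (by simp) b (by simp) ha hb hx
  unfold bsum
  refine le_trans (Finset.sum_le_sum_of_subset (t := {∅, {a, b, a + b}}) fun N hN => ?_) ?_
  · rw [mem_bs] at hN
    rw [mem_insert, mem_singleton]
    exact key N hN
  · rw [sum_pair, card_empty, pow_zero, hc]
    intro h
    rw [← h, card_empty] at hc
    omega

end Cfsg.Agent.H255.RG

namespace Cfsg.Agent.H255.RG

open Finset

/-- transport by an additive isomorphism -/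
theorem bsum_map {V V' : Type*} [AddCommGroup V] [AddCommGroup V'] (e : V ≃+ V') (P : Finset V) (θ : V → V)
    (q : ℕ) [DecidableEq V'] : bsum P θ q ≤ bsum (P.image e) (fun x => e (θ (e.symm x))) q := by
  classical
  unfold bsum
  rw [Finset.sum_congr rfl (g := fun N => q ^ (N.image e).card) fun N _ => by
    rw [card_image_of_injective _ e.injective]]
  rw [← Finset.sum_image (s := P.powerset.filter (Bic P θ)) (g := fun N => N.image e)
    (f := fun x : Finset V' => q ^ x.card)]
  · refine Finset.sum_le_sum_of_subset fun x hx => ?_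
    obtain ⟨N, hN, rfl⟩ := mem_image.1 hx
    rw [mem_bs] at hN
    rw [mem_bs]
    refine ⟨image_subset_image hN.sub, ?_, ?_, ?_⟩
    · intro a ha b hb hab
      obtain ⟨a', ka, rfl⟩ := mem_image.1 ha
      obtain ⟨b', kb, rfl⟩ := mem_image.1 hb
      obtain ⟨c, hc, hc'⟩ := mem_image.1 hab
      rw [← map_add] at hc'
      rw [e.injective hc'] at hc
      exact mem_image.2 ⟨a' + b', hN.add a' ka b' kb hc, map_add _ _ _⟩
    · intro a ha b hb ha' hb' hab
      obtain ⟨a', ka, rfl⟩ := mem_image.1 ha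
      obtain ⟨b', kb, rfl⟩ := mem_image.1 hb
      obtain ⟨c, hc, hc'⟩ := mem_image.1 hab
      rw [← map_add] at hc'
      rw [e.injective hc'] at hc
      exact hN.coadd a' ka b' kb (fun h => ha' (mem_image_of_mem _ h)) (fun h => hb' (mem_image_of_mem _ h)) hc
    · intro a ha
      obtain ⟨a', ka, rfl⟩ := mem_image.1 ha
      rw [e.symm_apply_apply]
      exact mem_image_of_mem _ (hN.st a' ka)
  · intro N _ N' _ he
    exact image_injective e.injective he

/-- `²A₃` -/
theorem bsum_flip3 {V : Type*} [AddCommGroup V] [DecidableEq V] {a b c : V}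
    (hnd : ([a, b, c, a + b, b + c, a + b + c] : List V).Nodup) {θ : V → V}
    (h1 : θ a = c) (h2 : θ c = a) (h3 : θ b = b) (h4 : θ (a + b) = b + c) (h5 : θ (b + c) = a + b) (q : ℕ) :
    bsum {a, b, c, a + b, b + c, a + b + c} θ q ≤ 1 + q + q ^ 2 + 2 * q ^ 3 + q ^ 4 + q ^ 5 + q ^ 6 := by
  classical
  set P : Finset V := {a, b, c, a + b, b + c, a + b + c} with hP
  let T : Finset (Bool × Bool × Bool × Bool) := {(false, false, false, false), (true, true, true, true),
    (true, false, true, true), (true, false, false, false), (true, false, false, true), (false, true, false, false),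
    (false, true, true, false), (false, true, true, true)}
  let g : Finset V → Bool × Bool × Bool × Bool := fun N =>
    (decide (a ∈ N), decide (b ∈ N), decide (a + b ∈ N), decide (a + b + c ∈ N))
  let wt : Bool × Bool × Bool × Bool → ℕ := fun x =>
    2 * x.1.toNat + x.2.1.toNat + 2 * x.2.2.1.toNat + x.2.2.2.toNat
  have hac : ∀ N, Bic P θ N → (c ∈ N ↔ a ∈ N) := fun N hN =>
    ⟨fun h => by have := hN.st c h; rwa [h2] at this, fun h => by have := hN.st a h; rwa [h1] at this⟩
  have hbc : ∀ N, Bic P θ N → (b + c ∈ N ↔ a + b ∈ N) := fun N hN =>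
    ⟨fun h => by have := hN.st _ h; rwa [h5] at this, fun h => by have := hN.st _ h; rwa [h4] at this⟩
  have hsum : ∀ N : Finset V, N ⊆ P → N.card = (decide (a ∈ N)).toNat + (decide (b ∈ N)).toNat +
      (decide (c ∈ N)).toNat + (decide (a + b ∈ N)).toNat + (decide (b + c ∈ N)).toNat +
      (decide (a + b + c ∈ N)).toNat := by
    intro N hN
    have e1 : N = ([a, b, c, a + b, b + c, a + b + c].filter (fun x => decide (x ∈ N))).toFinset := by
      ext x
      rw [List.mem_toFinset, List.mem_filter, decide_eq_true_eq]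
      constructor
      · intro hx
        refine ⟨?_, hx⟩
        have := hN hx
        rw [hP] at this
        simpa using this
      · exact fun hx => hx.2
    conv_lhs => rw [e1]
    rw [List.toFinset_card_of_nodup (hnd.filter _)]
    simp only [List.filter_cons, List.filter_nil]
    by_cases k1 : a ∈ N <;> by_cases k2 : b ∈ N <;> by_cases k3 : c ∈ N <;> by_cases k4 : a + b ∈ N <;>
      by_cases k5 : b + c ∈ N <;> by_cases k6 : a + b + c ∈ N <;> simp [k1, k2, k3, k4, k5, k6]
  have hcard : ∀ N, Bic P θ N → N.card = wt (g N) := by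
    intro N hN
    rw [hsum N hN.sub]
    simp only [hac N hN, hbc N hN, wt, g]
    ring
  have hT : ∀ N, Bic P θ N → g N ∈ T := by
    intro N hN
    have ma : a ∈ P := by simp [hP]
    have mb : b ∈ P := by simp [hP]
    have mc : c ∈ P := by simp [hP]
    have mab : a + b ∈ P := by simp [hP]
    have mabc : a + b + c ∈ P := by simp [hP]
    have c1 : a ∈ N → b ∈ N → a + b ∈ N := fun x y => hN.add a x b y mab
    have c2 : a ∉ N → b ∉ N → a + b ∉ N := fun x y => hN.coadd a ma b mb x y
    have c3 : a ∈ N → a + b ∈ N → a + b + c ∈ N := fun x y =>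
      hN.add _ y c ((hac N hN).2 x) mabc
    have c4 : a ∉ N → a + b ∉ N → a + b + c ∉ N := fun x y =>
      hN.coadd _ mab c mc y (fun h => x ((hac N hN).1 h))
    by_cases k1 : a ∈ N <;> by_cases k2 : b ∈ N <;> by_cases k4 : a + b ∈ N <;> by_cases k6 : a + b + c ∈ N <;>
      simp only [k1, k2, k4, k6, not_true_eq_false, not_false_eq_true, true_implies, false_implies,
        imp_false] at c1 c2 c3 c4 <;>
      simp [g, T, k1, k2, k4, k6] at *
  unfold bsum
  rw [Finset.sum_congr rfl (g := fun N => q ^ wt (g N)) fun N hN => by rw [mem_bs] at hN; rw [hcard N hN]]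
  rw [← Finset.sum_image (s := P.powerset.filter (Bic P θ)) (g := g) (f := fun x => q ^ wt x)]
  · refine (Finset.sum_le_sum_of_subset (t := T) fun x hx => ?_).trans ?_
    · obtain ⟨N, hN, rfl⟩ := mem_image.1 hx
      rw [mem_bs] at hN
      exact hT N hN
    · have : ∑ x ∈ T, q ^ wt x = 1 + q + q ^ 2 + 2 * q ^ 3 + q ^ 4 + q ^ 5 + q ^ 6 := by
        simp only [T, wt]
        rw [sum_insert (by decide), sum_insert (by decide), sum_insert (by decide), sum_insert (by decide),
          sum_insert (by decide), sum_insert (by decide), sum_insert (by decide), sum_singleton]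
        simp only [Bool.toNat_true, Bool.toNat_false]
        ring
      rw [this]
  · intro N hN N' hN' he
    rw [mem_coe, mem_bs] at hN hN'
    simp only [g, Prod.mk.injEq, decide_eq_decide] at he
    obtain ⟨k1, k2, k4, k6⟩ := he
    have k3 : c ∈ N ↔ c ∈ N' := by rw [hac N hN, hac N' hN', k1]
    have k5 : b + c ∈ N ↔ b + c ∈ N' := by rw [hbc N hN, hbc N' hN', k4]
    ext x
    constructor
    · intro hx
      have := hN.sub hx
      simp only [hP, mem_insert, mem_singleton] at this
      rcases this with rfl | rfl | rfl | rfl | rfl | rfl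
      · exact k1.1 hx
      · exact k2.1 hx
      · exact k3.1 hx
      · exact k4.1 hx
      · exact k5.1 hx
      · exact k6.1 hx
    · intro hx
      have := hN'.sub hx
      simp only [hP, mem_insert, mem_singleton] at this
      rcases this with rfl | rfl | rfl | rfl | rfl | rfl
      · exact k1.2 hx
      · exact k2.2 hx
      · exact k3.2 hx
      · exact k4.2 hx
      · exact k5.2 hx
      · exact k6.2 hx

end Cfsg.Agent.H255.RG
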