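import Mathlib
import Cfsg.Agent.H448.TorB.Perm

/-!
# The products over the cycles (helper255, S3509 F5)

`cyc_split` : `cyc q σ` is multiplicative over a decomposition into two stable parts; `cyc_trans` : `cyc q σ = q ^ n - 1` for a
transitive `σ`.
-/

set_option autoImplicit false

namespace Cfsg.Agent.H255.RG

open Finset Equiv Cfsg.Agent.H448.TorB

variable {ι : Type*} [Fintype ι] [DecidableEq ι]

theorem cyc_sum {κ : Type*} [Fintype κ] [DecidableEq κ] {q : ℕ} (hq : 2 ≤ q) (σ : Perm ι) (τ : Perm κ) :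
    cyc q (Equiv.sumCongr σ τ) = cyc q σ * cyc q τ := by
  rw [← natAbs_Dp hq, ← natAbs_Dp hq, ← natAbs_Dp hq, Dp_sum, Int.natAbs_mul]

theorem cyc_reindex {κ : Type*} [Fintype κ] [DecidableEq κ] {q : ℕ} (hq : 2 ≤ q) (e : ι ≃ κ) (σ : Perm ι) :
    cyc q ((e.symm.trans σ).trans e) = cyc q σ := by
  rw [← natAbs_Dp hq, ← natAbs_Dp hq, Dp_reindex]

/-- **a decomposition** -/
theorem cyc_split {q : ℕ} (hq : 2 ≤ q) (σ : Perm ι) (p : ι → Prop) [DecidablePred p] (h : ∀ x, p (σ x) ↔ p x) :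
    cyc q σ = cyc q (σ.subtypePerm h) * cyc q (σ.subtypePerm (p := fun x => ¬ p x) fun x => not_congr (h x)) := by
  rw [← cyc_sum hq, ← cyc_reindex hq (Equiv.sumCompl p)]
  congr 1
  ext x
  by_cases hx : p x
  · simp [Equiv.sumCompl_symm_apply_of_pos hx]
  · simp [Equiv.sumCompl_symm_apply_of_neg hx]

/-- **a transitive permutation** -/
theorem cyc_trans (q : ℕ) (σ : Perm ι) (x : ι) (h : ∀ y, σ.SameCycle x y) : cyc q σ = q ^ Fintype.card ι - 1 := by
  by_cases hx : σ x = x
  · have hall : ∀ y, y = x := by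
      intro y
      obtain ⟨i, hi⟩ := h y
      rw [← hi, Perm.zpow_apply_eq_self_of_apply_eq_self hx]
    have h1 : σ = 1 := Equiv.ext fun y => by rw [hall y, hx, Perm.one_apply]
    have h2 : Fintype.card ι = 1 := Fintype.card_eq_one_iff.2 ⟨x, hall⟩
    rw [h1, cyc_one, h2, pow_one, pow_one]
  · have hc : σ.IsCycle := ⟨x, hx, fun y _ => h y⟩
    have hs : σ.support = univ := by
      ext y
      simp only [mem_univ, iff_true, Perm.mem_support]
      intro hy
      obtain ⟨i, hi⟩ := (h y).symm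
      rw [Perm.zpow_apply_eq_self_of_apply_eq_self hy] at hi
      exact hx (hi ▸ hy)
    rw [cyc, hc.cycleType, hs, card_univ, Nat.sub_self, pow_zero, mul_one]
    simp

end Cfsg.Agent.H255.RG
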