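import Cfsg.Agent.H255.RG.Mat

/-!
# One component `A₃` and components of rank at most two (helper255, S3509 F5)

* `P3 a b c` : the positive roots of `A₃`;
* `tri_one`, `tri_flip` : the product inequality for `A₃` and `²A₃`;
* `pi_three` : the product inequality for `A₃` and a matching.
-/

set_option autoImplicit false

namespace Cfsg.Agent.H255.RG

open Finset Equiv Cfsg.Agent.H448.TorB

universe u v

variable {V : Type v} [AddCommGroup V] [DecidableEq V]

/-- the positive roots of `A₃` -/
def P3 (a b c : V) : Finset V := {a, b, c, a + b, b + c, a + b + c}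

theorem mem_P3 {a b c v : V} : v ∈ P3 a b c ↔ v = a ∨ v = b ∨ v = c ∨ v = a + b ∨ v = b + c ∨ v = a + b + c := by
  simp [P3]

theorem card_P3 {a b c : V} (hnd : ([a, b, c, a + b, b + c, a + b + c] : List V).Nodup) : (P3 a b c).card = 6 := by
  have e : P3 a b c = ([a, b, c, a + b, b + c, a + b + c] : List V).toFinset := by
    ext x
    simp [P3]
  rw [e, List.toFinset_card_of_nodup hnd]
  rfl

/-- `A₃` -/
theorem tri_one {a b c : V} (hnd : ([a, b, c, a + b, b + c, a + b + c] : List V).Nodup) (θ : V → V) (q : ℕ) :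
    bsum (P3 a b c) θ q * (q - 1) ^ 3 ≤ q ^ (6 + 3) := by
  have hnd' := hnd
  simp only [List.nodup_cons, List.mem_cons, List.not_mem_nil, or_false, not_or, not_false_eq_true, List.nodup_nil,
    and_true] at hnd'
  obtain ⟨⟨n1, n2, n3, n4, n5⟩, ⟨n6, n7, n8, n9⟩, ⟨n10, n11, n12⟩, ⟨n13, n14⟩, n15⟩ := hnd'
  have c1 : Chain (∅ ∪ {a}) [1] := by
    have := Chain.cons (R := {a}) Chain.nil (disjoint_empty_left _) (fun u hu v hv huv => by
      rw [mem_singleton] at hu hv
      exact absurd (hu.trans hv.symm) huv)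
    rwa [card_singleton] at this
  have c2 := Chain.cons (R := {b, a + b}) c1 (by
    rw [empty_union, disjoint_singleton_left, mem_insert, mem_singleton]
    rintro (h1 | h1)
    · exact n1 h1
    · exact n3 h1) (by
    intro u hu v hv huv
    rw [mem_insert, mem_singleton] at hu hv
    rcases hu with rfl | rfl <;> rcases hv with rfl | rfl
    · exact absurd rfl huv
    · right; simp
    · left; simp
    · exact absurd rfl huv)
  rw [card_pair n7] at c2
  have c3 := Chain.cons (R := {c, b + c, a + b + c}) c2 (by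
    rw [disjoint_left]
    intro v hv hv'
    simp only [mem_union, mem_insert, mem_singleton, notMem_empty, false_or] at hv hv'
    rcases hv with rfl | rfl | rfl
    · rcases hv' with h | h | h
      · exact n2 h
      · exact n4 h
      · exact n5 h
    · rcases hv' with h | h | h
      · exact n6 h
      · exact n8 h
      · exact n9 h
    · rcases hv' with h | h | h
      · exact n10 h.symm
      · exact n13 h
      · exact n14 h) (by
    intro u hu v hv huv
    simp only [mem_insert, mem_singleton] at hu hv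
    simp only [mem_union, mem_insert, mem_singleton, notMem_empty, false_or]
    rcases hu with rfl | rfl | rfl <;> rcases hv with rfl | rfl | rfl
    · exact absurd rfl huv
    · right; right; left; abel
    · right; right; right; abel
    · left; right; left; abel
    · exact absurd rfl huv
    · right; left; abel
    · left; right; right; abel
    · left; left; abel
    · exact absurd rfl huv)
  have hc3 : ({c, b + c, a + b + c} : Finset V).card = 3 := by
    rw [card_eq_three]
    exact ⟨c, b + c, a + b + c, n11, n12, n15, rfl⟩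
  rw [hc3] at c3
  have e : P3 a b c = ∅ ∪ {a} ∪ {b, a + b} ∪ {c, b + c, a + b + c} := by
    ext x
    simp only [P3, mem_union, mem_insert, mem_singleton, notMem_empty, false_or]
    tauto
  rw [← e] at c3
  have h5 := bsum_chain_mul c3 q
  rw [card_P3 hnd] at h5
  exact (Nat.mul_le_mul_right _ (bsum_id _ _ _)).trans h5

/-- `²A₃` -/
theorem tri_flip {a b c : V} (hnd : ([a, b, c, a + b, b + c, a + b + c] : List V).Nodup) {θ : V → V}
    (h1 : θ a = c) (h2 : θ c = a) (h3 : θ b = b) (h4 : θ (a + b) = b + c) (h5 : θ (b + c) = a + b) {q : ℕ}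
    (hq : 2 ≤ q) : bsum (P3 a b c) θ q * ((q ^ 2 - 1) * (q - 1)) ≤ q ^ (6 + 3) := by
  refine (Nat.mul_le_mul_right _ (bsum_flip3 hnd h1 h2 h3 h4 h5 q)).trans ?_
  obtain ⟨x, rfl⟩ : ∃ x, q = x + 2 := ⟨q - 2, by omega⟩
  have e1 : (x + 2) ^ 2 - 1 = x ^ 2 + 4 * x + 3 := by
    have : (x + 2) ^ 2 = x ^ 2 + 4 * x + 3 + 1 := by ring
    rw [this, Nat.add_sub_cancel]
  rw [e1, show x + 2 - 1 = x + 1 by omega]
  have e2 : (x + 2) ^ (6 + 3) = (1 + (x + 2) + (x + 2) ^ 2 + 2 * (x + 2) ^ 3 + (x + 2) ^ 4 + (x + 2) ^ 5 +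
      (x + 2) ^ 6) * ((x ^ 2 + 4 * x + 3) * (x + 1)) +
      (x ^ 7 + 13 * x ^ 6 + 73 * x ^ 5 + 231 * x ^ 4 + 447 * x ^ 3 + 531 * x ^ 2 + 360 * x + 107) := by
    ring
  rw [e2]
  exact Nat.le_add_right _ _

/-- a transposition -/
theorem cyc_swap {ι : Type*} [Fintype ι] [DecidableEq ι] (q : ℕ) {x z : ι} (h : x ≠ z) :
    cyc q (Equiv.swap x z) = (q ^ 2 - 1) * (q - 1) ^ (Fintype.card ι - 2) := by
  rw [cyc, (Perm.isCycle_swap h).cycleType, Perm.card_support_swap h]
  simp

/-- **The product inequality for one component `A₃` and a matching.** -/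
theorem pi_three {θ : V ≃+ V} {q : ℕ} (hq : 2 ≤ q) {ι : Type u} [Fintype ι] [DecidableEq ι] {b : ι → V} {σ : Perm ι}
    (hth : ∀ i, θ (b i) = b (σ i)) {x y z : ι} (hxy : x ≠ y) (hyz : y ≠ z) (hxz : x ≠ z) (hy : σ y = y)
    (hflip : (σ x = x ∧ σ z = z) ∨ (σ x = z ∧ σ z = x)) {A : ι → Prop} [DecidablePred A]
    (hA : ∀ i, A i ↔ i = x ∨ i = y ∨ i = z) (hAσ : ∀ i, A (σ i) ↔ A i) {μ : {i // ¬ A i} → {i // ¬ A i}}
    (h : Mt (fun i : {i // ¬ A i} => b i) μ (σ.subtypePerm (p := fun i => ¬ A i) fun i => not_congr (hAσ i)) θ)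
    (hnd : ([b x, b y, b z, b x + b y, b y + b z, b x + b y + b z] : List V).Nodup)
    (hd : Disjoint (P3 (b x) (b y) (b z)) (PM (fun i : {i // ¬ A i} => b i) μ)) :
    bsum (P3 (b x) (b y) (b z) ∪ PM (fun i : {i // ¬ A i} => b i) μ) θ q * cyc q σ ≤
      q ^ ((P3 (b x) (b y) (b z) ∪ PM (fun i : {i // ¬ A i} => b i) μ).card + Fintype.card ι) := by
  have hcA : Fintype.card {i // A i} = 3 := by
    have e : (univ.filter fun i => A i) = {x, y, z} := by
      ext i
      rw [mem_filter, hA]
      simp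
    rw [Fintype.card_subtype, e]
    exact card_eq_three.2 ⟨x, y, z, hxy, hxz, hyz, rfl⟩
  have hcard : Fintype.card ι = 3 + Fintype.card {i // ¬ A i} := by
    have h1 := Fintype.card_subtype_compl fun i => A i
    have h2 := Fintype.card_subtype_le fun i => A i
    rw [hcA] at h1 h2
    omega
  have hst : ∀ v ∈ P3 (b x) (b y) (b z), θ v ∈ P3 (b x) (b y) (b z) := by
    intro v hv
    rw [mem_P3] at hv ⊢
    rcases hflip with ⟨h1, h2⟩ | ⟨h1, h2⟩
    · rcases hv with rfl | rfl | rfl | rfl | rfl | rfl <;> simp only [map_add, hth, h1, h2, hy] <;> tauto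
    · rcases hv with rfl | rfl | rfl | rfl | rfl | rfl
      · simp only [hth, h1]; tauto
      · simp only [hth, hy]; tauto
      · simp only [hth, h2]; tauto
      · simp only [map_add, hth, h1, hy]
        rw [add_comm (b z)]; tauto
      · simp only [map_add, hth, h2, hy]
        rw [add_comm (b y)]; tauto
      · simp only [map_add, hth, h1, h2, hy]
        rw [add_comm (b z) (b y), add_comm (b y + b z), ← add_assoc]; tauto
  have key : bsum (P3 (b x) (b y) (b z)) θ q * cyc q (σ.subtypePerm hAσ) ≤ q ^ (6 + 3) := by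
    rcases hflip with ⟨h1, h2⟩ | ⟨h1, h2⟩
    · have e : σ.subtypePerm hAσ = 1 := by
        ext ⟨i, hi⟩
        show σ i = i
        rcases (hA i).1 hi with rfl | rfl | rfl
        · exact h1
        · exact hy
        · exact h2
      rw [e, cyc_one, hcA]
      exact tri_one hnd _ _
    · have e : σ.subtypePerm hAσ = Equiv.swap ⟨x, (hA x).2 (Or.inl rfl)⟩ ⟨z, (hA z).2 (Or.inr (Or.inr rfl))⟩ := by
        ext ⟨i, hi⟩
        rw [Perm.subtypePerm_apply]
        rcases (hA i).1 hi with rfl | rfl | rfl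
        · rw [Equiv.swap_apply_left]; exact h1
        · rw [Equiv.swap_apply_of_ne_of_ne]
          · exact hy
          · exact fun h => hxy (congrArg Subtype.val h).symm
          · exact fun h => hyz (congrArg Subtype.val h)
        · rw [Equiv.swap_apply_right]; exact h2
      rw [e, cyc_swap q (fun h => hxz (congrArg Subtype.val h)), hcA, pow_one]
      refine tri_flip hnd (by rw [hth, h1]) (by rw [hth, h2]) (by rw [hth, hy]) ?_ ?_ hq
      · rw [map_add, hth, hth, h1, hy, add_comm]
      · rw [map_add, hth, hth, h2, hy, add_comm]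
  have hPI := Mt.pi_le hq _ rfl h
  rw [cyc_split hq σ A hAσ, card_union_of_disjoint hd, card_P3 hnd, hcard]
  have hB := bsum_union hd hst h.stab q
  calc _ ≤ (_ * _) * (_ * _) := Nat.mul_le_mul_right _ hB
    _ = (_ * _) * (_ * _) := by rw [mul_mul_mul_comm]
    _ ≤ _ := Nat.mul_le_mul key hPI
    _ = _ := by rw [← pow_add]; congr 1; ring

end Cfsg.Agent.H255.RG
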